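import Cfsg.Agent.H116.HeckeU.Cas
import Cfsg.Prelude.Def_Blocks

/-!
# Strong links (helper526, for S4879)

`SL Δ τ M χ ψ` : the eigenvalues of all central integral elements of the Hecke algebra on the `χ`-isotypic and on the
`ψ`-isotypic part of the functions on the chambers are congruent modulo `M` (the conclusion of helper739's `om_mem`).
-/

set_option autoImplicit false
set_option linter.unusedSectionVars false

namespace Cfsg.Agent.H526.LB

open Cfsg Cfsg.Agent.Tits.Core
open Cfsg.Agent.H157.HK (Wt Z)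
open Cfsg.Agent.H116.HeckeC (ad Ph)

universe u

variable {I W : Type*} {M : CoxeterMatrix I} [Group W] {cs : CoxeterSystem M W} {C : Type*} [Fintype C] [DecidableEq C]
  {G : Type u} [Group G] [Fintype G] [MulAction G C]

/-- **Strong link.** -/
def SL (Δ : Bldg cs C) (τ : Wt cs) (M' : Ideal AlgInt) (χ ψ : G → ℂ) : Prop :=
  ∀ z : W → ℤ, (fun w => (z w : ℂ)) ∈ Z cs τ → ∀ ω ω' : ℂ,
    ad Δ (fun w => (z w : ℂ)) * Ph C χ = ω • Ph C χ → ad Δ (fun w => (z w : ℂ)) * Ph C ψ = ω' • Ph C ψ →
      MemLocalIdeal M' (ω - ω')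

end Cfsg.Agent.H526.LB
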