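import Cfsg.Agent.H116.HeckeU.Alg
import Cfsg.Agent.H157.HK.E

/-!
# The involution `θ : T_s ↦ q_s - 1 - T_s` of the Hecke algebra (helper526)

* `th cs t` : the linear map `θ` with `θ (T_s v) = (q_s - 1 - T_s) (θ v)` and `θ 1 = 1`;
* `th_Lm` : `θ (u v) = θ u * θ v`; `th_th` : `θ (θ v) = v`; `th_mem_Z`; `trace_th`;
* `th_int` : `θ` preserves the integral span of the `T_w` if the parameters are integers.
-/

set_option autoImplicit false
set_option linter.unusedSectionVars false

namespace Cfsg.Agent.H526.LB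

open CoxeterSystem Module Cfsg.Agent.Tits.Exchange Cfsg.Agent.Tits.Core
open Cfsg.Agent.H157.HK (Wt L R LL RR Cas A Z e wd eJ pJ iJ wd_reduced wd_prod LL_nil LL_cons LL_e_one L_sq L_e commLR
  LL_append Wt.f_mul reduced_tail)
open Cfsg.Agent.H116.HeckeU

variable {I W : Type*} {M : CoxeterMatrix I} [Group W] (cs : CoxeterSystem M W) [Fintype W]

/-- `q_s - 1 - T_s`. -/
noncomputable def L' (t : Wt cs) (i : I) : Module.End ℂ (W → ℂ) := ((t.p i : ℂ) - 1) • 1 - L cs t i

/-- The word product of the `q_s - 1 - T_s`. -/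
noncomputable def LL' (t : Wt cs) (ω : List I) : Module.End ℂ (W → ℂ) := (ω.map (L' cs t)).prod

theorem LL'_nil (t : Wt cs) : LL' cs t [] = 1 := rfl

theorem LL'_cons (t : Wt cs) (i : I) (ω : List I) : LL' cs t (i :: ω) = L' cs t i * LL' cs t ω := by
  unfold LL'
  rw [List.map_cons, List.prod_cons]

theorem L'_mul_L (t : Wt cs) (i : I) : L' cs t i * L cs t i = (-(t.p i : ℂ)) • 1 := by
  unfold L'
  rw [sub_mul, smul_mul_assoc, one_mul, L_sq]
  module

theorem L_mul_L' (t : Wt cs) (i : I) : L cs t i * L' cs t i = (-(t.p i : ℂ)) • 1 := by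
  unfold L'
  rw [mul_sub, mul_smul_comm, mul_one, L_sq]
  module

theorem L'_sq (t : Wt cs) (i : I) : L' cs t i * L' cs t i = ((t.p i : ℂ) - 1) • L' cs t i + (t.p i : ℂ) • 1 := by
  conv_lhs => enter [2]; unfold L'
  rw [mul_sub, mul_smul_comm, mul_one, L'_mul_L]
  module

theorem L'_comm (t : Wt cs) (i : I) (ω : List I) : L' cs t i * RR cs t ω = RR cs t ω * L' cs t i := by
  have h := commLR cs t [i] ω
  rw [LL_cons, LL_nil, mul_one] at h
  unfold L'
  rw [sub_mul, mul_sub, h, smul_mul_assoc, mul_smul_comm, one_mul, mul_one]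

theorem LL'_comm (t : Wt cs) (ω ω' : List I) : LL' cs t ω * RR cs t ω' = RR cs t ω' * LL' cs t ω := by
  induction ω with
  | nil => rw [LL'_nil, one_mul, mul_one]
  | cons i ω ih => rw [LL'_cons, mul_assoc, ih, ← mul_assoc, L'_comm, mul_assoc]

/-- `LL' ω * LL ω.reverse` is a scalar. -/
theorem LL'_mul_rev (t : Wt cs) (ω : List I) :
    LL' cs t ω * LL cs t ω.reverse = ((ω.map fun i => -(t.p i : ℂ)).prod) • 1 := by
  induction ω with
  | nil => rw [LL'_nil, List.reverse_nil, LL_nil, List.map_nil, List.prod_nil, one_smul, one_mul]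
  | cons i ω ih =>
    rw [LL'_cons, List.reverse_cons, LL_append, List.map_cons, List.prod_cons]
    have h1 : LL cs t [i] = L cs t i := by rw [LL_cons, LL_nil, mul_one]
    rw [h1, mul_assoc, ← mul_assoc (LL' cs t ω), ih, smul_mul_assoc, one_mul, mul_smul_comm, L'_mul_L, smul_smul,
      mul_comm]

theorem rev_mul_LL' (t : Wt cs) (ω : List I) :
    LL cs t ω.reverse * LL' cs t ω = ((ω.map fun i => -(t.p i : ℂ)).prod) • 1 := by
  induction ω with
  | nil => rw [LL'_nil, List.reverse_nil, LL_nil, List.map_nil, List.prod_nil, one_smul, one_mul]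
  | cons i ω ih =>
    rw [LL'_cons, List.reverse_cons, LL_append, List.map_cons, List.prod_cons]
    have h1 : LL cs t [i] = L cs t i := by rw [LL_cons, LL_nil, mul_one]
    rw [h1, mul_assoc, ← mul_assoc (L cs t i), L_mul_L', smul_mul_assoc, one_mul, mul_smul_comm, ih, smul_smul]

theorem prod_ne (t : Wt cs) (ω : List I) : ((ω.map fun i => -(t.p i : ℂ)).prod) ≠ 0 := by
  intro h
  rw [List.prod_eq_zero_iff, List.mem_map] at h
  obtain ⟨i, -, hi⟩ := h
  have := t.p_pos i
  rw [neg_eq_zero] at hi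
  exact this.ne' (by exact_mod_cast hi)

theorem prod_eq (t : Wt cs) {ω ω' : List I} (hω : cs.IsReduced ω) (hω' : cs.IsReduced ω')
    (h : cs.wordProd ω = cs.wordProd ω') :
    ((ω.map fun i => -(t.p i : ℂ)).prod) = ((ω'.map fun i => -(t.p i : ℂ)).prod) := by
  have key : ∀ ω : List I, cs.IsReduced ω → ((ω.map fun i => -(t.p i : ℂ)).prod) =
      (-1) ^ cs.length (cs.wordProd ω) * (t.f (cs.wordProd ω) : ℂ) := by
    intro ω hω
    induction ω with
    | nil => rw [wordProd_nil, cs.length_one, t.f_one]; simp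
    | cons i ω ih =>
      have hr := reduced_tail cs hω
      rw [List.map_cons, List.prod_cons, ih hr, wordProd_cons, t.f_mul (Wt.lt_cons hω)]
      have h1 : cs.length (cs.simple i * cs.wordProd ω) = cs.length (cs.wordProd ω) + 1 := by
        rw [← wordProd_cons, hω.eq, hr.eq, List.length_cons]
      rw [h1, pow_succ]
      push_cast
      ring
  rw [key ω hω, key ω' hω', h]

variable [DecidableEq W]

/-- The word product depends only on the element. -/
theorem LL'_eq (t : Wt cs) {ω ω' : List I} (hω : cs.IsReduced ω) (hω' : cs.IsReduced ω')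
    (h : cs.wordProd ω = cs.wordProd ω') : LL' cs t ω = LL' cs t ω' := by
  have h1 : LL cs t ω.reverse = LL cs t ω'.reverse := by
    rw [H116.HeckeU.LL_eq cs t ((cs.isReduced_reverse_iff _).2 hω), H116.HeckeU.LL_eq cs t ((cs.isReduced_reverse_iff _).2 hω'),
      wordProd_reverse, wordProd_reverse, h]
  have h2 := LL'_mul_rev cs t ω
  have h3 := rev_mul_LL' cs t ω'
  have h4 : LL' cs t ω * (LL cs t ω.reverse * LL' cs t ω') = LL' cs t ω * LL cs t ω.reverse * LL' cs t ω' :=
    (mul_assoc _ _ _).symm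
  rw [h2, h1, h3, prod_eq cs t hω hω' h, smul_mul_assoc, one_mul, mul_smul_comm, mul_one] at h4
  exact smul_right_injective _ (prod_ne cs t ω') h4

/-- **The involution `θ`.** -/
noncomputable def th (t : Wt cs) : (W → ℂ) →ₗ[ℂ] (W → ℂ) where
  toFun v := ∑ w, v w • LL' cs t (wd cs w) (e 1)
  map_add' u v := by
    rw [← Finset.sum_add_distrib]
    exact Finset.sum_congr rfl fun w _ => by rw [Pi.add_apply, add_smul]
  map_smul' c v := by
    rw [RingHom.id_apply, Finset.smul_sum]
    exact Finset.sum_congr rfl fun w _ => by rw [Pi.smul_apply, smul_eq_mul, mul_smul]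

theorem th_apply (t : Wt cs) (v : W → ℂ) : th cs t v = ∑ w, v w • LL' cs t (wd cs w) (e 1) := rfl

theorem th_e (t : Wt cs) (w : W) : th cs t (e w) = LL' cs t (wd cs w) (e 1) := by
  rw [th_apply, Finset.sum_eq_single w]
  · rw [show (e w : W → ℂ) w = 1 from Pi.single_eq_same _ _, one_smul]
  · intro x _ hx
    rw [show (e w : W → ℂ) x = 0 from Pi.single_eq_of_ne hx _, zero_smul]
  · intro h
    exact absurd (Finset.mem_univ _) h

theorem th_one (t : Wt cs) : th cs t (e 1) = e 1 := by
  rw [th_e, H157.HK.wd_one, LL'_nil, Module.End.one_apply]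

/-- two linear maps which agree on the basis are equal -/
theorem ext_e {V : Type*} [AddCommGroup V] [Module ℂ V] {a b : (W → ℂ) →ₗ[ℂ] V} (h : ∀ w, a (e w) = b (e w)) : a = b := by
  refine LinearMap.pi_ext' fun x => ?_
  apply LinearMap.ext_ring
  simp only [LinearMap.comp_apply, LinearMap.single_apply]
  exact h x

theorem th_e_of (t : Wt cs) {ω : List I} (hω : cs.IsReduced ω) : th cs t (e (cs.wordProd ω)) = LL' cs t ω (e 1) := by
  rw [th_e, LL'_eq cs t (wd_reduced cs _) hω (wd_prod cs _)]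

/-- `θ (T_s v) = (q_s - 1 - T_s) (θ v)`. -/
theorem th_L (t : Wt cs) (i : I) (v : W → ℂ) : th cs t (L cs t i v) = L' cs t i (th cs t v) := by
  have key : th cs t ∘ₗ L cs t i = L' cs t i ∘ₗ th cs t := by
    apply ext_e
    intro w
    have up : ∀ w : W, cs.length w < cs.length (cs.simple i * w) →
        th cs t (e (cs.simple i * w)) = L' cs t i (th cs t (e w)) := by
      intro w hw
      have hr : cs.IsReduced (i :: wd cs w) := by
        show cs.length (cs.wordProd (i :: wd cs w)) = (i :: wd cs w).length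
        have h1 := (wd_reduced cs w).eq
        rw [wd_prod] at h1
        rw [wordProd_cons, wd_prod, List.length_cons, ← h1]
        rcases cs.length_simple_mul w i with h | h <;> omega
      have h2 := th_e_of cs t hr
      rw [wordProd_cons, wd_prod, LL'_cons, Module.End.mul_apply, ← th_e] at h2
      exact h2
    rw [LinearMap.comp_apply, LinearMap.comp_apply]
    rcases cs.length_simple_mul w i with h | h
    · rw [L_e cs t (by omega), up w (by omega)]
    · have h1 : cs.simple i * (cs.simple i * w) = w := by simp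
      have h2 : e w = L cs t i (e (cs.simple i * w)) := by
        rw [L_e cs t (by rw [h1]; omega), h1]
      have h3 := up (cs.simple i * w) (by rw [h1]; omega)
      rw [h1] at h3
      have h4 : L cs t i (e w) = ((t.p i : ℂ) - 1) • e w + (t.p i : ℂ) • e (cs.simple i * w) := by
        conv_lhs => rw [h2]
        rw [← Module.End.mul_apply, L_sq, LinearMap.add_apply, LinearMap.smul_apply, LinearMap.smul_apply,
          Module.End.one_apply, ← h2]
      rw [h4, map_add, map_smul, map_smul, h3]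
      have h5 := congrArg (fun a : Module.End ℂ (W → ℂ) => a (th cs t (e (cs.simple i * w)))) (L'_sq cs t i)
      simp only [Module.End.mul_apply, LinearMap.add_apply, LinearMap.smul_apply, Module.End.one_apply] at h5
      rw [h5]
  exact congrArg (fun a : (W → ℂ) →ₗ[ℂ] (W → ℂ) => a v) key

theorem th_LL (t : Wt cs) (ω : List I) (v : W → ℂ) : th cs t (LL cs t ω v) = LL' cs t ω (th cs t v) := by
  induction ω with
  | nil => rw [LL_nil, LL'_nil, Module.End.one_apply, Module.End.one_apply]
  | cons i ω ih => rw [LL_cons, LL'_cons, Module.End.mul_apply, Module.End.mul_apply, th_L, ih]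

theorem Lm_th_e (t : Wt cs) (w : W) : Lm cs t (th cs t (e w)) = LL' cs t (wd cs w) := by
  apply H157.HK.ext_left cs (t := t)
  · exact Lm_comm_RR cs t _
  · exact fun ω => LL'_comm cs t _ _
  · rw [Lm_e_one, th_e]

/-- **`θ` is multiplicative.** -/
theorem th_Lm (t : Wt cs) (u v : W → ℂ) : th cs t (Lm cs t u v) = Lm cs t (th cs t u) (th cs t v) := by
  have h1 : ∀ w, th cs t (LL cs t (wd cs w) v) = Lm cs t (th cs t (e w)) (th cs t v) := fun w => by
    rw [Lm_th_e, th_LL]
  rw [Lm_apply, LinearMap.sum_apply, map_sum]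
  conv_rhs => rw [← sum_e u, map_sum, map_sum, LinearMap.sum_apply]
  refine Finset.sum_congr rfl fun w _ => ?_
  rw [LinearMap.smul_apply, map_smul, map_smul, map_smul, LinearMap.smul_apply, h1]

/-- `θ` is an involution. -/
theorem th_th (t : Wt cs) (v : W → ℂ) : th cs t (th cs t v) = v := by
  have h0 : ∀ i v, th cs t (L' cs t i v) = L cs t i (th cs t v) := by
    intro i v
    unfold L'
    rw [LinearMap.sub_apply, LinearMap.smul_apply, Module.End.one_apply, map_sub, map_smul, th_L]
    unfold L'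
    rw [LinearMap.sub_apply, LinearMap.smul_apply, Module.End.one_apply, sub_sub_cancel]
  have h1 : ∀ ω, th cs t (LL' cs t ω (e 1)) = LL cs t ω (e 1) := by
    intro ω
    induction ω with
    | nil => rw [LL_nil, LL'_nil, Module.End.one_apply, th_one]
    | cons i ω ih => rw [LL_cons, LL'_cons, Module.End.mul_apply, Module.End.mul_apply, h0, ih]
  have key : th cs t ∘ₗ th cs t = LinearMap.id := by
    apply ext_e
    intro w
    rw [LinearMap.comp_apply, th_e, h1, LL_e_one cs t (wd_reduced cs w), wd_prod, LinearMap.id_apply]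
  exact congrArg (fun a : (W → ℂ) →ₗ[ℂ] (W → ℂ) => a v) key

theorem th_injective (t : Wt cs) : Function.Injective (th cs t) :=
  Function.LeftInverse.injective (th_th cs t)

/-- `θ` preserves the centre. -/
theorem th_mem_Z {t : Wt cs} {z : W → ℂ} (hz : z ∈ Z cs t) : th cs t z ∈ Z cs t := by
  rw [mem_Z_iff] at hz ⊢
  intro v
  have h1 := congrArg (th cs t) (hz (th cs t v))
  rw [th_Lm, th_Lm, th_th] at h1
  exact h1

theorem Lm_th (t : Wt cs) (u : W → ℂ) : Lm cs t (th cs t u) = (th cs t * Lm cs t u) * th cs t := by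
  apply LinearMap.ext
  intro v
  rw [Module.End.mul_apply, Module.End.mul_apply, th_Lm, th_th]

/-- `θ` preserves the trace. -/
theorem trace_th (t : Wt cs) (u : W → ℂ) :
    LinearMap.trace ℂ (W → ℂ) (Lm cs t (th cs t u)) = LinearMap.trace ℂ (W → ℂ) (Lm cs t u) := by
  rw [Lm_th, LinearMap.trace_mul_comm, ← mul_assoc]
  have h1 : (th cs t * th cs t : Module.End ℂ (W → ℂ)) = 1 := by
    apply LinearMap.ext
    intro v
    rw [Module.End.mul_apply, th_th, Module.End.one_apply]
  rw [h1, one_mul]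

/-! ### Integrality -/

/-- integral coefficients -/
def IntV (v : W → ℂ) : Prop := ∀ w, ∃ n : ℤ, v w = n

theorem IntV.add {u v : W → ℂ} (hu : IntV u) (hv : IntV v) : IntV (u + v) := fun w => by
  obtain ⟨a, ha⟩ := hu w
  obtain ⟨b, hb⟩ := hv w
  exact ⟨a + b, by rw [Pi.add_apply, ha, hb, Int.cast_add]⟩

theorem IntV.sum {ι : Type*} (s : Finset ι) {f : ι → W → ℂ} (h : ∀ a ∈ s, IntV (f a)) : IntV (∑ a ∈ s, f a) := by
  classical
  induction s using Finset.induction_on with
  | empty => exact fun w => ⟨0, by simp⟩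
  | insert a s ha ih =>
    rw [Finset.sum_insert ha]
    exact (h a (Finset.mem_insert_self _ _)).add (ih fun b hb => h b (Finset.mem_insert_of_mem hb))

theorem IntV.smul {v : W → ℂ} (hv : IntV v) {c : ℂ} (hc : ∃ n : ℤ, c = n) : IntV (c • v) := fun w => by
  obtain ⟨a, ha⟩ := hv w
  obtain ⟨b, hb⟩ := hc
  exact ⟨b * a, by rw [Pi.smul_apply, ha, hb, smul_eq_mul, Int.cast_mul]⟩

theorem IntV.L {t : Wt cs} {i : I} (hp : ∃ n : ℤ, (t.p i : ℂ) = n) {v : W → ℂ} (hv : IntV v) : IntV (L cs t i v) := by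
  intro x
  rw [H157.HK.L_apply]
  obtain ⟨a, ha⟩ := hv (cs.simple i * x)
  obtain ⟨b, hb⟩ := hv x
  obtain ⟨n, hn⟩ := hp
  split_ifs
  · exact ⟨a + (n - 1) * b, by rw [ha, hb, hn]; push_cast; ring⟩
  · exact ⟨n * a, by rw [ha, hn]; push_cast; ring⟩

theorem IntV.L' {t : Wt cs} {i : I} (hp : ∃ n : ℤ, (t.p i : ℂ) = n) {v : W → ℂ} (hv : IntV v) :
    IntV (L' cs t i v) := by
  have h1 := IntV.L cs hp hv
  intro x
  obtain ⟨a, ha⟩ := h1 x
  obtain ⟨b, hb⟩ := hv x
  obtain ⟨n, hn⟩ := hp
  refine ⟨(n - 1) * b - a, ?_⟩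
  unfold LB.L'
  rw [LinearMap.sub_apply, LinearMap.smul_apply, Module.End.one_apply, Pi.sub_apply, Pi.smul_apply, ha, hb, hn,
    smul_eq_mul]
  push_cast
  ring

theorem IntV.e (w : W) : IntV (e w : W → ℂ) := fun x => by
  by_cases h : x = w
  · exact ⟨1, by rw [h, show (H157.HK.e w : W → ℂ) w = 1 from Pi.single_eq_same _ _, Int.cast_one]⟩
  · exact ⟨0, by rw [show (H157.HK.e w : W → ℂ) x = 0 from Pi.single_eq_of_ne h _, Int.cast_zero]⟩

/-- **`θ` preserves integrality.** -/
theorem th_int {t : Wt cs} (hp : ∀ i, ∃ n : ℤ, (t.p i : ℂ) = n) {v : W → ℂ} (hv : IntV v) : IntV (th cs t v) := by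
  have h1 : ∀ ω : List I, IntV (LL' cs t ω (H157.HK.e 1 : W → ℂ)) := by
    intro ω
    induction ω with
    | nil => exact IntV.e 1
    | cons i ω ih =>
      rw [LL'_cons, Module.End.mul_apply]
      exact IntV.L' cs (hp i) ih
  rw [th_apply]
  exact IntV.sum _ fun w _ => (h1 _).smul (hv w)

end Cfsg.Agent.H526.LB
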